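import Cfsg.Agent.H316.HT.Defs
import Cfsg.Agent.H317.PQ.Defs
import Cfsg.Agent.H133.PB.Basic
import Cfsg.Agent.H55.OutGen

/-!
# S4933: a row from one character of a model, trivial outer automorphism group (helper155)
-/

set_option autoImplicit false

namespace Cfsg.Agent.H155.HT

open Cfsg Subgroup Cfsg.Agent.H316.HT

universe u v

/-- if `Out S = 1` then `N ≅ S` normal in `G` with `C_G(N) = 1` is all of `G` -/
theorem eq_top_of_out_one {S : Type v} [Group S] (hout : Nat.card (Out S) = 1) {G : Type u} [Group G]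
    (N : Subgroup G) [N.Normal] (e : N ≃* S) (hC : Subgroup.centralizer (N : Set G) = ⊥) : N = ⊤ := by
  have h1 : Nat.card (Out N) = 1 := by rw [H55.OutGen.card_out_congr e, hout]
  have h2 : Subsingleton (Out N) := (Nat.card_eq_one_iff_unique.1 h1).1
  rw [eq_top_iff]
  intro g _
  have h3 : (QuotientGroup.mk (MulAut.conjNormal g : MulAut N) : Out N) = QuotientGroup.mk 1 :=
    Subsingleton.elim _ _
  rw [eq_comm, QuotientGroup.eq, inv_one, one_mul] at h3
  obtain ⟨n, hn⟩ := h3
  have h4 : (n : G)⁻¹ * g ∈ Subgroup.centralizer (N : Set G) := by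
    rw [Subgroup.mem_centralizer_iff]
    intro x hx
    have h5 := congrArg (fun α : MulAut N => ((α ⟨x, hx⟩ : N) : G)) hn
    have h6 : (n : G) * x * (n : G)⁻¹ = g * x * g⁻¹ := by
      simpa using h5
    have h7 : g * x = (n : G) * x * (n : G)⁻¹ * g := by rw [h6]; group
    rw [mul_assoc, h7]
    group
  rw [hC, Subgroup.mem_bot] at h4
  have h5 : g = n := by
    have := congrArg (fun y => (n : G) * y) h4
    simpa using this
  rw [h5]
  exact n.2

/-- a nonlinear irreducible character is not constant -/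
theorem exists_ne {H : Type u} [Group H] [Finite H] {χ : H → ℂ} (h : IsIrrCharacter H χ) (hd : charDegree χ ≠ 1) :
    ∃ n, χ n ≠ χ 1 := by
  by_contra hcon
  push Not at hcon
  have := Fintype.ofFinite H
  have h1 := Cfsg.Agent.Characters.Core.classInner_irr_self h
  have h2 := Cfsg.Agent.Blocks.Basic.irr_one_eq_charDegree h
  have h3 : classInner χ χ = (charDegree χ : ℂ) * (charDegree χ : ℂ) := by
    unfold classInner
    have h4 : ∀ g, χ g = (charDegree χ : ℂ) := fun g => (hcon g).trans h2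
    simp only [h4, Finset.sum_const, Finset.card_univ, nsmul_eq_mul, map_natCast]
    have h5 : (Nat.card H : ℂ) ≠ 0 := by
      exact_mod_cast Nat.card_pos.ne'
    rw [← Nat.card_eq_fintype_card, inv_mul_cancel_left₀ h5]
  rw [h1] at h3
  have h6 : charDegree χ * charDegree χ = 1 := by exact_mod_cast h3.symm
  exact hd (Nat.eq_one_of_mul_eq_one_left h6)

/-- **The row from one character of a model `H`** (`Out S = 1`). -/
theorem row_of_model {p : ℕ} {S : Type v} [Group S] (ho : Nat.card (Out S) = 1) {H : Type}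
    [Group H] [Finite H] (e : S ≃* H) {χ : IrrCharacter H} (hB : χ ∈ Cfsg.Agent.H317.PQ.B0 p H)
    (h0 : 0 < vd p (χ : H → ℂ))
    (hle : ∀ (A : Type) [Group A] [Finite A], (A ≃* H) → ∀ (P : Sylow p A) (a : ℕ), 0 < a → CD p a (P : Subgroup A) →
      vd p (χ : H → ℂ) ≤ a) : Row p S := by
  intro A _ _ N _ hN hC M hM P a ha hP
  obtain ⟨e1⟩ := hN
  have hT : N = ⊤ := eq_top_of_out_one ho N e1 hC
  have : M.IsPrime := hM.2.1.isPrime
  let f : A ≃* H := ((Subgroup.topEquiv.symm.trans (MulEquiv.subgroupCongr hT.symm)).trans e1).trans e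
  have hd : charDegree ((χ : H → ℂ) ∘ f) = charDegree (χ : H → ℂ) := by
    unfold charDegree
    rw [Function.comp_apply, map_one]
  refine ⟨⟨(χ : H → ℂ) ∘ f, _⟩, Cfsg.Agent.H133.PB.mem_principalBlock_comp f.toMonoidHom f.surjective (hB M hM), ?_,
    ?_, ?_⟩
  · have h1 : charDegree (χ : H → ℂ) ≠ 1 := by
      intro h1
      unfold vd at h0
      rw [h1] at h0
      simp at h0
    obtain ⟨n, hn⟩ := exists_ne χ.2 h1
    refine ⟨f.symm n, by rw [hT]; exact mem_top _, ?_⟩
    show (χ : H → ℂ) (f (f.symm n)) ≠ (χ : H → ℂ) (f 1)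
    rw [f.apply_symm_apply, map_one]
    exact hn
  · show 0 < (charDegree ((χ : H → ℂ) ∘ f)).factorization p
    rw [hd]
    exact h0
  · show (charDegree ((χ : H → ℂ) ∘ f)).factorization p ≤ a
    rw [hd]
    exact hle A f P a ha hP

/-- **The row from one character of height one.** -/
theorem row_of_one {p : ℕ} {S : Type v} [Group S] (ho : Nat.card (Out S) = 1) {H : Type}
    [Group H] [Finite H] (e : S ≃* H) {d : ℕ}
    (h : ∃ χ : IrrCharacter H, charDegree (χ : H → ℂ) = d ∧ χ ∈ Cfsg.Agent.H317.PQ.B0 p H)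
    (hd : d.factorization p = 1) : Row p S := by
  obtain ⟨χ, h1, h2⟩ := h
  have hv : vd p (χ : H → ℂ) = 1 := by
    unfold vd
    rw [h1, hd]
  refine row_of_model ho e h2 (by omega) fun A _ _ _ P a ha _ => ?_
  omega

end Cfsg.Agent.H155.HT
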